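import Mathlib.Algebra.Polynomial.Laurent
import Mathlib.RingTheory.TensorProduct.MonoidAlgebra
import Mathlib.Algebra.Category.Ring.Constructions
import Mathlib.RingTheory.FiniteType

/-!
# Base change of Laurent polynomial rings, finite type
-/

set_option autoImplicit false
universe u

open CategoryTheory CategoryTheory.Limits LaurentPolynomial

namespace Groth.Agent.Ega2.H285.LaurentBC

open scoped AlgebraMonoidAlgebra in
/-- `K[T;T⁻¹]` is the pushout of `B[T;T⁻¹]` along `B → K`. -/
theorem isPushout_laurent {B K : Type u} [CommRing B] [CommRing K] (φ : B →+* K) :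
    IsPushout (CommRingCat.ofHom φ) (CommRingCat.ofHom (C : B →+* B[T;T⁻¹]))
      (CommRingCat.ofHom (C : K →+* K[T;T⁻¹]))
      (CommRingCat.ofHom (AddMonoidAlgebra.mapRingHom ℤ φ : B[T;T⁻¹] →+* K[T;T⁻¹])) := by
  let _ : Algebra B K := φ.toAlgebra
  have h : Algebra.IsPushout B K B[T;T⁻¹] K[T;T⁻¹] := inferInstance
  exact CommRingCat.isPushout_of_isPushout B K B[T;T⁻¹] K[T;T⁻¹]

theorem finiteType_laurent (B : Type u) [CommRing B] : Algebra.FiniteType B B[T;T⁻¹] :=
  inferInstanceAs (Algebra.FiniteType B (AddMonoidAlgebra B ℤ))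

end Groth.Agent.Ega2.H285.LaurentBC
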