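import Groth.Agent.Ega2.H284.ConeBasic
import Groth.Agent.Ega2.H285.AwayLaurent
import Groth.Agent.Ega2.H285.LaurentBC
import Mathlib.AlgebraicGeometry.Morphisms.FiniteType
import Mathlib.AlgebraicGeometry.ResidueField
import Mathlib.AlgebraicGeometry.Pullbacks
import Mathlib.AlgebraicGeometry.Morphisms.QuasiCompact

/-!
# The fibres of the canonical retraction of the pointed affine cone when `A_+` is generated in degree one
-/

set_option autoImplicit false
universe u

open CategoryTheory CategoryTheory.Limits AlgebraicGeometry LaurentPolynomial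
open Groth.Agent.Ega2.H284.ConeBasic Groth.Agent.Ega2.H285.AwayLaurent Groth.Agent.Ega2.H285.LaurentBC

namespace Groth.Agent.Ega2.H285.ConeFibre

variable {R A : Type u} [CommRing R] [CommRing A] [Algebra R A] {𝒜 : ℕ → Submodule R A} [GradedAlgebra 𝒜]

/-- The structure map `Spec A_f → Spec A_(f)`. -/
noncomputable abbrev awayMor (𝒜 : ℕ → Submodule R A) [GradedAlgebra 𝒜] (f : A) :
    Spec (CommRingCat.of (Localization.Away f)) ⟶ Spec (CommRingCat.of (HomogeneousLocalization.Away 𝒜 f)) :=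
  Spec.map (CommRingCat.ofHom (algebraMap (HomogeneousLocalization.Away 𝒜 f) (Localization.Away f)))

/-- `Spec A_f ≅ Spec A_(f)[T;T⁻¹]`. -/
noncomputable def laurentIso {f : A} (hf : f ∈ 𝒜 1) :
    Spec (CommRingCat.of (Localization.Away f)) ≅
      Spec (CommRingCat.of ((HomogeneousLocalization.Away 𝒜 f)[T;T⁻¹])) :=
  Scheme.Spec.mapIso (awayEquiv 𝒜 hf).toCommRingCatIso.op

theorem laurentIso_hom {f : A} (hf : f ∈ 𝒜 1) :
    (laurentIso (𝒜 := 𝒜) hf).hom ≫ Spec.map (CommRingCat.ofHom (C : _ →+* (HomogeneousLocalization.Away 𝒜 f)[T;T⁻¹])) =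
      awayMor 𝒜 f := by
  change Spec.map _ ≫ Spec.map _ = _
  rw [← Spec.map_comp]
  congr 1
  ext z
  exact awayEquiv_C 𝒜 hf z

theorem isPullback_awayMor {f : A} (hf : f ∈ 𝒜 1) {K : CommRingCat.{u}}
    (φ : CommRingCat.of (HomogeneousLocalization.Away 𝒜 f) ⟶ K) :
    IsPullback (Spec.map (CommRingCat.ofHom (AddMonoidAlgebra.mapRingHom ℤ φ.hom :
          (HomogeneousLocalization.Away 𝒜 f)[T;T⁻¹] →+* K[T;T⁻¹])) ≫ (laurentIso hf).inv)
      (Spec.map (CommRingCat.ofHom (C : K →+* K[T;T⁻¹])))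
      (awayMor 𝒜 f) (Spec.map φ) := by
  have h := (isPullback_SpecMap_of_isPushout _ _ _ _ (isPushout_laurent φ.hom)).flip
  refine h.of_iso (Iso.refl _) (laurentIso hf).symm (Iso.refl _) (Iso.refl _) ?_ ?_ ?_ ?_
  · simp
  · simp
  · simp only [Iso.refl_hom, Category.comp_id, Iso.symm_hom]
    rw [← laurentIso_hom hf, Iso.inv_hom_id_assoc]
  · simp

variable {π : (Cone.pointed 𝒜 : Scheme.{u}) ⟶ Proj 𝒜}
    (hπ : ∀ (d : ℕ) (f : A) (hd : 0 < d) (hf : f ∈ 𝒜 d),
        Cone.chart hf hd ≫ π =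
          Spec.map (CommRingCat.ofHom (algebraMap (HomogeneousLocalization.Away 𝒜 f) (Localization.Away f))) ≫
            Proj.awayι 𝒜 f hf hd)

include hπ

/-- The square with sides `Spec A_f → E`, `Spec A_(f) → Proj` is cartesian. -/
theorem isPullback_chart {d : ℕ} {f : A} (hd : 0 < d) (hf : f ∈ 𝒜 d) :
    IsPullback (Cone.chart hf hd) (awayMor 𝒜 f) π (Proj.awayι 𝒜 f hf hd) := by
  have := isOpenImmersion_chart (𝒜 := 𝒜) hf hd
  refine (IsOpenImmersion.isPullback (awayMor 𝒜 f) (Cone.chart hf hd) (Proj.awayι 𝒜 f hf hd) π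
    (hπ d f hd hf) ?_).flip
  rw [Proj.opensRange_awayι, preimage_basicOpen hπ hd hf, opensRange_chart]

/-- Every point of `Proj` is in `D_+(f)`, `f` of degree one. -/
theorem exists_mem_one (hgen : (HomogeneousIdeal.irrelevant 𝒜).toIdeal = Ideal.span (𝒜 1 : Set A)) (x : Proj 𝒜) :
    ∃ (f : A), f ∈ 𝒜 1 ∧ x ∈ Proj.basicOpen 𝒜 f := by
  have h := Proj.iSup_basicOpen_eq_top 𝒜 (fun f : 𝒜 1 => (f : A))
    (hgen.le.trans (le_of_eq (by congr 1; exact Subtype.range_coe.symm)))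
  have hx : x ∈ ⨆ f : 𝒜 1, Proj.basicOpen 𝒜 (f : A) := by rw [h]; trivial
  obtain ⟨f, hf⟩ := TopologicalSpace.Opens.mem_iSup.mp hx
  exact ⟨f.1, f.2, hf⟩

theorem fibre_iso (hgen : (HomogeneousIdeal.irrelevant 𝒜).toIdeal = Ideal.span (𝒜 1 : Set A)) (x : Proj 𝒜) :
      ∃ e : pullback π ((Proj 𝒜).fromSpecResidueField x) ≅
          Spec (CommRingCat.of (LaurentPolynomial ((Proj 𝒜).residueField x))),
        e.hom ≫ Spec.map (CommRingCat.ofHom (algebraMap ((Proj 𝒜).residueField x)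
          (LaurentPolynomial ((Proj 𝒜).residueField x)))) = pullback.snd π ((Proj 𝒜).fromSpecResidueField x) := by
  obtain ⟨f, hf, hx⟩ := exists_mem_one hπ hgen x
  rw [← Proj.opensRange_awayι 𝒜 f hf zero_lt_one] at hx
  obtain ⟨y, rfl⟩ := hx
  set j := Proj.awayι 𝒜 f hf zero_lt_one with hj
  let g : Spec ((Proj 𝒜).residueField (j y)) ⟶ Spec (CommRingCat.of (HomogeneousLocalization.Away 𝒜 f)) :=
    Spec.map (inv (j.residueFieldMap y)) ≫ (Spec (CommRingCat.of (HomogeneousLocalization.Away 𝒜 f))).fromSpecResidueField y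
  have hg : g ≫ j = (Proj 𝒜).fromSpecResidueField (j y) := by
    rw [Category.assoc, ← Scheme.Hom.SpecMap_residueFieldMap_fromSpecResidueField, ← Spec.map_comp_assoc,
      IsIso.hom_inv_id, Spec.map_id, Category.id_comp]
  let φ := Spec.preimage g
  have hφ : Spec.map φ = g := Spec.map_preimage g
  have h1 := isPullback_awayMor hf φ
  have h2 := isPullback_chart hπ zero_lt_one hf
  have h3 := h1.paste_horiz h2
  rw [hφ, ← hj, hg] at h3
  exact ⟨h3.isoPullback.symm, h3.isoPullback_inv_snd⟩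

/-- The charts of degree one cover the pointed cone. -/
theorem exists_chart_one (hgen : (HomogeneousIdeal.irrelevant 𝒜).toIdeal = Ideal.span (𝒜 1 : Set A))
    (x : (Cone.pointed 𝒜 : Scheme.{u})) :
    ∃ (f : A) (hf : f ∈ 𝒜 1), x ∈ (Cone.chart (𝒜 := 𝒜) hf zero_lt_one).opensRange := by
  obtain ⟨f, hf, hx⟩ := exists_mem_one hπ hgen (π.base x)
  refine ⟨f, hf, ?_⟩
  rw [opensRange_chart, ← preimage_basicOpen hπ zero_lt_one hf]
  exact hx

theorem locallyOfFiniteType (hgen : (HomogeneousIdeal.irrelevant 𝒜).toIdeal = Ideal.span (𝒜 1 : Set A)) :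
    LocallyOfFiniteType π := by
  have hloc : ∀ (f : A) (hf : f ∈ 𝒜 1), LocallyOfFiniteType (awayMor 𝒜 f) := by
    intro f hf
    rw [← laurentIso_hom hf]
    have : LocallyOfFiniteType (Spec.map (CommRingCat.ofHom
        (C : _ →+* (HomogeneousLocalization.Away 𝒜 f)[T;T⁻¹]))) := by
      rw [HasRingHomProperty.Spec_iff (P := @LocallyOfFiniteType)]
      have := finiteType_laurent (HomogeneousLocalization.Away 𝒜 f)
      exact (RingHom.finiteType_algebraMap).mpr this
    infer_instance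
  refine IsZariskiLocalAtSource.of_iSup_eq_top (P := @LocallyOfFiniteType)
    (fun f : 𝒜 1 => (Cone.chart (𝒜 := 𝒜) f.2 zero_lt_one).opensRange) ?_ ?_
  · rw [eq_top_iff]
    intro x _
    obtain ⟨f, hf, hx⟩ := exists_chart_one hπ hgen x
    exact TopologicalSpace.Opens.mem_iSup.mpr ⟨⟨f, hf⟩, hx⟩
  · rintro ⟨f, hf⟩
    have := isOpenImmersion_chart (𝒜 := 𝒜) hf zero_lt_one
    have h1 := hloc f hf
    have h2 : LocallyOfFiniteType (Cone.chart hf zero_lt_one ≫ π) := by
      rw [hπ 1 f zero_lt_one hf]; infer_instance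
    have h3 : (Cone.chart (𝒜 := 𝒜) hf zero_lt_one).opensRange.ι =
        (Cone.chart (𝒜 := 𝒜) hf zero_lt_one).isoOpensRange.inv ≫ Cone.chart hf zero_lt_one := by
      rw [Iso.eq_inv_comp, Scheme.Hom.isoOpensRange_hom_ι]
    change LocallyOfFiniteType ((Cone.chart (𝒜 := 𝒜) hf zero_lt_one).opensRange.ι ≫ π)
    rw [h3, Category.assoc]
    infer_instance

end Groth.Agent.Ega2.H285.ConeFibre
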